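import Groth.Agent.An.H896.ChartEt
import Groth.Agent.An.H896.CovVanCl
import Groth.Agent.An.H14.KillOne
import Groth.Agent.An.H888.Dies
import Groth.Agent.An.H888.Collapse
import Groth.Agent.An.H885.EpsUnit
import Groth.Agent.Etrest.ConstBasic

/-!
# Comparison of étale and classical cohomology for curves, constant finite coefficients

`X` smooth over `ℂ` of dimension `≤ 1`, `M` a finite abelian group: `R^q ε_* M = 0` for `q > 0`, hence
`H^q(X_et, M) → H^q(X(ℂ), M)` is bijective for all `q` (no properness needed).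
-/

set_option autoImplicit false

open CategoryTheory CategoryTheory.Limits CategoryTheory.Abelian AlgebraicGeometry Topology
  TopologicalSpace Opposite Polynomial An

noncomputable section

namespace Groth.Agent.An.H896.Final

open Groth.Agent.An.H888 ClsH Dies

section Local

variable {T : Type} [TopologicalSpace T]

/-- Classes of positive degree over a one-point object vanish. -/
theorem HA_eq_zero_of_subsingleton (A : Cl T) [Subsingleton A.E] (a : A.E) (G : Cl.Ab T) (q : ℕ)
    (x : HA A G (q + 1)) : x = 0 := by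
  obtain ⟨S, hS, h⟩ := exists_cover_res_eq_zero (J := Cl.topology T) A q G x
  obtain ⟨B, g, hSg, hg, b, hb⟩ := hS a
  let s : A ⟶ B := ⟨fun _ => b, continuous_const, fun y => by
    rw [← g.over, hb, Subsingleton.elim a y]⟩
  have hs : s ≫ g = 𝟙 A := Cl.hom_ext (funext fun y => Subsingleton.elim _ _)
  have h1 := h g hSg
  rw [← res_id x, ← hs, ← res_res, h1, res_zero]

end Local

variable {X : Scheme.{0}} [X.Over An.SC] [LocallyOfFiniteType (X ↘ An.SC)] [Fact An.EtaleLH]

/-- `DiesAt` is invariant under isomorphisms of the coefficients. -/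
theorem diesAt_of_iso {U : X.Etale} {G G' : Cl.Ab (Pts X)} (e : G ≅ G') {q : ℕ}
    (x : HA ((eps X).obj U) G q) (a : Pts U.left)
    (h : DiesAt (x.comp (Ext.mk₀ e.hom) (add_zero q)) a) : DiesAt x a := by
  obtain ⟨V, g, b, hb, h⟩ := h
  refine ⟨V, g, b, hb, ?_⟩
  rw [res_comp_ext] at h
  have h1 := congrArg (fun y => y.comp (Ext.mk₀ e.inv) (add_zero q)) h
  simp only [Ext.zero_comp] at h1
  rw [Ext.comp_assoc_of_third_deg_zero, Ext.mk₀_comp_mk₀, e.hom_inv_id] at h1
  rwa [Ext.comp_mk₀_id] at h1

/-- Restriction. -/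
theorem diesAt_of_res {U V : X.Etale} {G : Cl.Ab (Pts X)} (g : V ⟶ U) {q : ℕ}
    (x : HA ((eps X).obj U) G q) (b : Pts V.left)
    (h : DiesAt (res ((eps X).map g) x) b) :
    DiesAt x (Pts.map (X := V.left) (Y := U.left) g.left b) := by
  obtain ⟨W, k, c, hc, h⟩ := h
  refine ⟨W, k ≫ g, c, ?_, ?_⟩
  · rw [← hc]
    exact Subtype.ext (Category.assoc _ _ _).symm
  · rw [Functor.map_comp, ← res_res]
    exact h

theorem diesAt_zero {U : X.Etale} {G : Cl.Ab (Pts X)} {q : ℕ} (a : Pts U.left) :
    DiesAt (0 : HA ((eps X).obj U) G q) a :=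
  ⟨U, 𝟙 U, a, Subtype.ext (Category.comp_id _), res_zero _⟩

/-- Classes of positive degree with coefficients in a finite constant sheaf die étale-locally. -/
theorem diesAt_const [Smooth (X ↘ An.SC)] (hdim : topologicalKrullDim X ≤ 1) (M : Type)
    [AddCommGroup M] [Finite M] (U : X.Etale) (q : ℕ)
    (x : HA ((eps X).obj U) (Cl.const (Pts X) M) (q + 1)) (a : Pts U.left) : DiesAt x a := by
  obtain ⟨V, g, b, rfl, hV⟩ := ChartEt.exists_chart_etale X hdim U a
  apply diesAt_of_res
  generalize res ((eps X).map g) x = y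
  rcases hV with hV | ⟨D, hD, π, hπ1, hπ2, hπ⟩
  · have hs : Subsingleton ((eps X).obj V).E := by
      refine ⟨fun (c d : Pts V.left) => Subtype.ext ?_⟩
      rw [← cancel_mono (V.left ↘ An.SC), c.2, d.2]
    rw [HA_eq_zero_of_subsingleton ((eps X).obj V) b _ q y]
    exact diesAt_zero b
  · cases q with
    | zero =>
      obtain ⟨W, k, hk, h⟩ := Groth.Agent.An.H14.KillOne.exists_kill_one X V D hD π hπ M y
      obtain ⟨c, hc⟩ := hk b
      exact ⟨W, k, c, hc, h⟩
    | succ q =>
      let _ : (Spec (CommRingCat.of (Localization.Away D))).Over SC :=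
        ⟨Spec.map (CommRingCat.ofHom ((algebraMap ℂ[X] (Localization.Away D)).comp Polynomial.C))⟩
      have h1 : π.IsOver SC := ⟨hπ⟩
      have hl := Groth.Agent.An.H14.LineSpec.isLine_spec (D := D) (Localization.Away D) rfl
      have hlh : IsLocalHomeomorph (Pts.map π) := H866.EtLH.isLocalHomeomorph_map π
      have h2 := Groth.Agent.An.H14.Re1Sch.finCov hl hD (Pts.map π)
        (H879.Covering.isCoveringMap_map π hlh) (H879.FiniteClosed.finite_fibre_of_isFinite π)
      rw [CovVanCl.HA_const_eq_zero_of_finCov ((eps X).obj V) (D.roots.toFinset.finite_toSet)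
        h2 M (q + 2) (by omega) y]
      exact diesAt_zero b

/-- `R^q ε_* (ε^* M) = 0` for `q > 0`. -/
theorem isZero_epsRpush_const [An.EpsCont X] [Smooth (X ↘ An.SC)]
    (hdim : topologicalKrullDim X ≤ 1) (M : Type) [AddCommGroup M] [Finite M] (q : ℕ) (hq : 0 < q) :
    IsZero ((An.epsRpush X q).obj ((An.epsPull X).obj (EtCoh.const X M))) :=
  isZero_epsRpush X _ (fun U q x a => diesAt_of_iso (An.epsPullConst X M) x a
    (diesAt_const hdim M U q _ a)) q hq

/-- The comparison map is bijective for smooth curves and finite constant coefficients. -/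
theorem hcmpConst_bijective [An.EpsCont X] [PreservesFiniteLimits (An.epsPull X)]
    [Smooth (X ↘ An.SC)] (hdim : topologicalKrullDim X ≤ 1) (M : Type) [AddCommGroup M] [Finite M]
    (q : ℕ) : Function.Bijective (An.HcmpConst X M q) := by
  rw [Collapse.hcmpConst_bijective_iff]
  refine Collapse.hcmp_bijective_of_acyclic X _ ?_ (isZero_epsRpush_const hdim M) q
  exact Groth.Agent.An.H885.EpsUnit.isIso_unit X _
    (Groth.Agent.An.H885.EpsUnit.isLC_of_isFiniteLocallyConstant X _
      (Etrest.ConstBasic.isFiniteLocallyConstant_const X M))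

end Groth.Agent.An.H896.Final
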